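import Groth.Agent.Models.H73.StalkCount
import Groth.Agent.CurvesA.ClosedPtSep
import Groth.Agent.Etcore.CurveTop
import Groth.Agent.Etrest.SHPoint
import Groth.Agent.Etrest.HpullConst
import Mathlib.AlgebraicGeometry.AlgClosed.Basic

/-!
# Counting `H¹(Z, M)` for a curve `Z` and a finite birational `ν : Z' ⟶ Z`

`card_H1_mul_le`: `#H⁰(Z', M) · m^s · #H¹(Z, M) ≤ #H⁰(Z, M) · m^b · #H¹(Z', M)` where `s` is the number of points of the
exceptional set and `b` the number of points above it.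
-/

set_option autoImplicit false
universe u

open CategoryTheory CategoryTheory.Limits CategoryTheory.Abelian AlgebraicGeometry Opposite

namespace Groth.Agent.Models.H73.CurveCount

open Groth.Agent.Sga4B.ConstLC Groth.Agent.Etcore.CompSES Groth.Agent.Etcore.CompH
open Groth.Agent.Models.H73.StalkCount

variable {k : Type u} [Field k] [IsAlgClosed k] {Z Z' : Scheme.{u}}
    (f : Z ⟶ Spec (CommRingCat.of k)) [LocallyOfFiniteType f] (ν : Z' ⟶ Z)

theorem homeoOver_of_isIso (U : Z.Opens) [IsIso (ν ∣_ U)] : HomeoOver ν U :=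
  ⟨inferInstance, inferInstance⟩

include f in
theorem exists_data [Surjective ν] (U : Z.Opens) [IsIso (ν ∣_ U)]
    (hfin : ((U : Set Z)ᶜ).Finite) (hcl : ∀ x ∉ U, IsClosed ({x} : Set Z)) :
    ∃ D : Data (fam ν), (D.T : Set Z) = (U : Set Z)ᶜ := by
  classical
  refine ⟨
    { V := fun _ => U
      T := hfin.toFinset
      homeo := fun _ => homeoOver_of_isIso ν U
      disj := fun i j hij => (hij (Subsingleton.elim _ _)).elim
      closed := fun x hx => hcl x (by simpa using hx)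
      sepClosed := fun x hx =>
        CurvesA.ClosedPtSep.isSepClosed_residueField f x (hcl x (by simpa using hx))
      cover := fun x hx => ⟨0, by
        by_contra h
        exact hx (by simpa using h)⟩
      surj := fun x => ⟨0, ν.surjective x⟩ }, ?_⟩
  simp

variable (M : Type) [AddCommGroup M]

/-- The counting formula for `0 ⟶ M ⟶ ν_* M ⟶ Q ⟶ 0`. -/
theorem card_formula [IsFinite ν] (D : Data (fam ν)) :
    Nat.card (EtCoh.H Z (EtCoh.const Z M) 0) *
      Nat.card (EtCoh.H Z (cokernel (φ (fam ν) (ULift.{u + 1} M))) 0) *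
      Nat.card (EtCoh.H Z' (EtCoh.const Z' M) 1) =
    Nat.card (EtCoh.H Z' (EtCoh.const Z' M) 0) * Nat.card (EtCoh.H Z (EtCoh.const Z M) 1) := by
  have e1 : ∀ q, Nat.card (EtCoh.H Z (EtCoh.const Z M) q) =
      Nat.card (EtCoh.H Z (LC Z (ULift.{u + 1} M)) q) := fun q =>
    Nat.card_congr (Sga4B.HTools.HCongr (constIso Z M) q).toEquiv
  have e : G (fam ν) (ULift.{u + 1} M) ≅ (EtCoh.push ν).obj (LC Z' (ULift.{u + 1} M)) :=
    biproductUniqueIso (S (fam ν) (ULift.{u + 1} M))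
  have e2 : ∀ q, Nat.card (EtCoh.H Z' (EtCoh.const Z' M) q) =
      Nat.card (EtCoh.H Z (G (fam ν) (ULift.{u + 1} M)) q) := fun q =>
    (Nat.card_congr ((Sga4B.HTools.HCongr e q).trans (HS (fam ν) M 0 q)).toEquiv).symm
  rw [e1, e1, e2, e2]
  exact Sga4B.CurveCard.card_ext (ses_shortExact (fam ν) M D) (EtCoh.const Z ℤ)
    (subsingleton_coker (fam ν) M D 1 one_pos)

include f in
theorem card_H0_coker_mul_le [IsFinite ν] [Finite M] (D : Data (fam ν))
    (hb : ∀ x ∈ D.T, (ν ⁻¹' {x}).Finite) :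
    Nat.card (EtCoh.H Z (cokernel (φ (fam ν) (ULift.{u + 1} M))) 0) * Nat.card M ^ D.T.card ≤
      Nat.card M ^ (∑ x ∈ D.T, (ν ⁻¹' {x}).ncard) := by
  classical
  let ξ : D.T → (Spec (CommRingCat.of k) ⟶ Z) := fun x =>
    pointOfClosedPoint f x.1 (D.closed x.1 x.2)
  have hξ : ∀ x : D.T, ξ x default = x.1 := fun x => pointOfClosedPoint_apply f x.1 _ _
  have hξ' : ∀ x : D.T, ξ x ≫ f = 𝟙 _ := fun x => pointOfClosedPoint_comp f x.1 _
  have hse := ses_shortExact (fam ν) M D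
  have h1 := card_H0_le D.T (cokernel (φ (fam ν) (ULift.{u + 1} M))) (supp_coker (fam ν) M D) ξ
    hξ (fun x => finite_stalk_coker ν M (ξ x) hse)
  have h2 : Nat.card M ^ D.T.card = ∏ _x : D.T, Nat.card M := by
    rw [Finset.prod_const, Finset.card_univ, Fintype.card_coe]
  have h3 : Nat.card M ^ (∑ x ∈ D.T, (ν ⁻¹' {x}).ncard) =
      ∏ x : D.T, Nat.card M ^ (ν ⁻¹' {x.1}).ncard := by
    rw [← Finset.prod_pow_eq_pow_sum]
    exact (Finset.prod_coe_sort D.T (fun x => Nat.card M ^ (ν ⁻¹' {x}).ncard)).symm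
  rw [h2, h3]
  refine (Nat.mul_le_mul_right _ h1).trans ?_
  rw [← Finset.prod_mul_distrib]
  refine Finset.prod_le_prod' fun x _ => ?_
  have h4 := card_stalk_coker_mul_le ν M f (ξ x) (hξ' x) (by
    rw [hξ x]; exact hb x.1 x.2) hse
  rwa [hξ x] at h4

include f in
/-- `#H⁰(Z', M) · m^s · #H¹(Z, M) ≤ #H⁰(Z, M) · m^b · #H¹(Z', M)`. -/
theorem card_H1_mul_le [IsFinite ν] [Finite M] (D : Data (fam ν))
    (hb : ∀ x ∈ D.T, (ν ⁻¹' {x}).Finite) :
    Nat.card (EtCoh.H Z' (EtCoh.const Z' M) 0) * Nat.card M ^ D.T.card *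
        Nat.card (EtCoh.H Z (EtCoh.const Z M) 1) ≤
      Nat.card (EtCoh.H Z (EtCoh.const Z M) 0) * Nat.card M ^ (∑ x ∈ D.T, (ν ⁻¹' {x}).ncard) *
        Nat.card (EtCoh.H Z' (EtCoh.const Z' M) 1) := by
  have h1 := card_formula ν M D
  have h2 := card_H0_coker_mul_le f ν M D hb
  calc _ = Nat.card M ^ D.T.card * (Nat.card (EtCoh.H Z' (EtCoh.const Z' M) 0) *
        Nat.card (EtCoh.H Z (EtCoh.const Z M) 1)) := by ring
    _ = Nat.card (EtCoh.H Z (EtCoh.const Z M) 0) *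
      (Nat.card (EtCoh.H Z (cokernel (φ (fam ν) (ULift.{u + 1} M))) 0) * Nat.card M ^ D.T.card) *
      Nat.card (EtCoh.H Z' (EtCoh.const Z' M) 1) := by rw [← h1]; ring
    _ ≤ _ := Nat.mul_le_mul_right _ (Nat.mul_le_mul_left _ h2)

end Groth.Agent.Models.H73.CurveCount
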