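import Groth.Agent.Models.H73.PicCount
import Groth.Agent.Models.H58.NodalGlueGeo
import Groth.Agent.VarietyB.DimTop

/-!
# Counting the `l`-torsion of the Picard group: consequences of `card_pic_tors_mul_le`

`card_pic_tors_mul_le'`: the geometric hypotheses are deduced from the density of `U`.
`card_le_of`, `eq_of`: numerical consequences.
-/

set_option autoImplicit false
universe u

open CategoryTheory CategoryTheory.Limits CategoryTheory.Abelian AlgebraicGeometry Opposite TopologicalSpace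

namespace Groth.Agent.Models.H73.CurveNum

open Groth.Agent.Models.H73.PicCount Groth.Agent.Models.H73.CurveCount

theorem dim_le_one {T : Type u} [TopologicalSpace T]
    (h : ∀ Z ∈ irreducibleComponents T, topologicalKrullDim Z = 1) : topologicalKrullDim T ≤ 1 := by
  rw [VarietyB.DimTop.topologicalKrullDim_eq_iSup_irreducibleComponents]
  exact iSup_le fun Z => (h Z.1 Z.2).le

theorem card_le_of {l : ℕ} (hl : 1 < l) {P c s b a h : ℕ} (h1 : P * l ^ (c + s) ≤ l ^ (1 + b + 2 * a))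
    (h2 : 1 + a + b ≤ h + c + s) : P ≤ l ^ (h + a) := by
  have h3 : P * l ^ (c + s) ≤ l ^ (h + a) * l ^ (c + s) := by
    rw [← pow_add]
    exact h1.trans (Nat.pow_le_pow_right (by omega) (by omega))
  exact Nat.le_of_mul_le_mul_right h3 (pow_pos (by omega) _)

theorem eq_of {l : ℕ} (hl : 1 < l) {P c s b a h : ℕ} (h1 : P * l ^ (c + s) ≤ l ^ (1 + b + 2 * a))
    (h2 : 1 + a + b ≤ h + c + s) (h3 : l ^ (h + a) ≤ P) : 1 + a + b = h + c + s := by
  have h4 : l ^ (h + a + (c + s)) ≤ l ^ (1 + b + 2 * a) := by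
    rw [pow_add]
    exact (Nat.mul_le_mul_right _ h3).trans h1
  have h5 := (Nat.pow_le_pow_iff_right hl).1 h4
  omega

variable {k : Type u} [Field k] [IsAlgClosed k]

theorem finite_pic_tors {X : Scheme.{u}}
    (f : X ⟶ Spec (CommRingCat.of k)) (n : ℕ) (hn : (n : k) ≠ 0)
    (hfin : Finite (EtCoh.H X (EtCoh.const X (ZMod n)) 1)) :
    Finite {x : Grpsch.PicGrp.Pic X // x ^ n = 1} := by
  obtain ⟨e⟩ := CurvesA.MuConst.nonempty_iso_const_mu_of_isSepClosed k n hn f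
  let e1 : EtCoh.H X (EtCoh.const X (ZMod n)) 1 ≃+ EtCoh.H X (EtCoh.mu X n) 1 :=
    ((EtCoh.HF X 1).mapIso e).addCommGroupIsoToAddEquiv
  have hfin' : Finite (EtCoh.H X (EtCoh.mu X n) 1) := Finite.of_equiv _ e1.toEquiv
  let p := CurvesA.H1GmPic.picEquiv X
  have h1 : ∀ x : Grpsch.PicGrp.Pic X, x ^ n = 1 ↔ n • p (Additive.ofMul x) = 0 := by
    intro x
    rw [← map_nsmul, ← ofMul_pow, EmbeddingLike.map_eq_zero_iff]
    exact (Additive.ofMul.injective.eq_iff' rfl).symm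
  have hs : ∀ x : {x : Grpsch.PicGrp.Pic X // x ^ n = 1}, ∃ y : EtCoh.H X (EtCoh.mu X n) 1,
      Sheaf.H.map (EtCoh.muι X n) 1 y = p (Additive.ofMul x.1) := fun x =>
    Dix.KummerLES.exists_mu_of_nsmul_eq_zero (Etcore.MuCard.invertible X f n hn) 1 _
      ((h1 x.1).1 x.2)
  choose y hy using hs
  refine Finite.of_injective y fun a b hab => ?_
  have h2 : p (Additive.ofMul a.1) = p (Additive.ofMul b.1) := by
    rw [← hy a, ← hy b, hab]
  exact Subtype.ext (Additive.ofMul.injective (p.injective h2))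

variable {Z Z' : Scheme.{u}} (f : Z ⟶ Spec (CommRingCat.of k)) [IsProper f] (ν : Z' ⟶ Z) [IsFinite ν]

omit [IsAlgClosed k] in
include f in
theorem geo (hdim : topologicalKrullDim Z ≤ 1) (U : Z.Opens) (hU : Dense (U : Set Z)) [IsIso (ν ∣_ U)] :
    Surjective ν ∧ ((U : Set Z)ᶜ).Finite ∧ ∀ x ∉ U, IsClosed ({x} : Set Z) := by
  have hN : IsNoetherian Z := CurvesA.ClosedPtSep.isNoetherian f
  have h1 : ∀ x ∉ U, IsClosed ({x} : Set Z) := fun x hx =>
    H58.NodalGlueGeo.isClosed_of_notMem hdim U hU x hx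
  refine ⟨?_, H58.NodalGlueGeo.finite_of_isClosed_singleton U.isOpen.isClosed_compl (fun x hx => h1 x hx), h1⟩
  have h2 : IsDominant ν := H58.NodalGlueGeo.isDominant ν U hU
  have h3 := ν.isClosedMap.isClosed_range
  exact ⟨Set.range_eq_univ.1 (h3.closure_eq.symm.trans ν.denseRange.closure_eq)⟩

/-- Finiteness of the torsion, without further hypotheses. -/
theorem finite_pic_tors' [Smooth (ν ≫ f)] (hdim : topologicalKrullDim Z ≤ 1) (U : Z.Opens)
    (hU : Dense (U : Set Z)) [IsIso (ν ∣_ U)] (n : ℕ) (hn : (n : k) ≠ 0) :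
    Finite {x : Grpsch.PicGrp.Pic Z // x ^ n = 1} := by
  have hn0 : 0 < n := Nat.pos_of_ne_zero (by rintro rfl; simp at hn)
  have : NeZero n := ⟨hn0.ne'⟩
  obtain ⟨h1, h2, h3⟩ := geo f ν hdim U hU
  have hdim' := (topologicalKrullDim_le ν).trans hdim
  obtain ⟨D, -⟩ := exists_data f ν U h2 h3
  exact finite_pic_tors f n hn (finite_H1 f ν (ZMod n) D (SmoothCount.finite_H1 (ν ≫ f) hdim' n hn))

/-- `#Pic(Z)[n] · n^(c + s) ≤ n^(1 + b + 2a)`. -/
theorem card_pic_tors_mul_le' [ConnectedSpace Z] [Smooth (ν ≫ f)] (hdim : topologicalKrullDim Z ≤ 1)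
    (U : Z.Opens) (hU : Dense (U : Set Z)) [IsIso (ν ∣_ U)] (n : ℕ) (hn : (n : k) ≠ 0) :
    Nat.card {x : Grpsch.PicGrp.Pic Z // x ^ n = 1} *
      n ^ (Nat.card (ConnectedComponents Z') + ((U : Set Z)ᶜ).ncard) ≤
    n ^ (1 + (ν ⁻¹' (U : Set Z)ᶜ).ncard + 2 * Models.curveGenus k Z' (ν ≫ f)) := by
  obtain ⟨h1, h2, h3⟩ := geo f ν hdim U hU
  exact card_pic_tors_mul_le f ν U h2 h3 hdim n hn

end Groth.Agent.Models.H73.CurveNum
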