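import Groth.Agent.Models.H73.Disj
import Groth.Agent.CohqA.TwoChart

/-!
# `∑ h¹(W i, O) ≤ h¹(X, O)` for a finite disjoint union of open subschemes
-/

set_option autoImplicit false
universe u

open CategoryTheory CategoryTheory.Limits AlgebraicGeometry Opposite

namespace Groth.Agent.Models.H73.DisjCoh

open Groth.Agent.CohqA.TwoChart Groth.Agent.CohqB.QC2 Groth.Agent.Models.H73.Disj

theorem exists_lift {k A H P : Type*} [Field k] [AddCommGroup A] [AddCommGroup H] [Module k H]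
    [AddCommGroup P] [Module k P] (s : k → A → A) (δ : A →+ H) (hδ : Function.Surjective δ)
    (hs : ∀ c z, δ (s c z) = c • δ z) (g : A →+ P) (hg : ∀ c z, g (s c z) = c • g z)
    (hker : ∀ z, δ z = 0 → g z = 0) : ∃ h : H →ₗ[k] P, ∀ z, h (δ z) = g z := by
  have key : ∀ z z', δ z = δ z' → g z = g z' := by
    intro z z' h
    rw [← sub_eq_zero, ← map_sub]
    exact hker _ (by rw [map_sub, h, sub_self])
  have hr : ∀ x, δ (Function.surjInv hδ x) = x := Function.surjInv_eq hδ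
  refine ⟨{ toFun := fun x => g (Function.surjInv hδ x), map_add' := ?_, map_smul' := ?_ }, ?_⟩
  · intro x y
    rw [← map_add]
    exact key _ _ (by rw [map_add, hr, hr, hr])
  · intro c x
    rw [RingHom.id_apply, ← hg]
    exact key _ _ (by rw [hs, hr, hr])
  · intro z
    exact key _ _ (hr _)

variable {k : Type u} [Field k]

theorem app_baseHom {X Y : Scheme.{u}} [X.Over (Spec (CommRingCat.of k))] [Y.Over (Spec (CommRingCat.of k))]
    (g : Y ⟶ X) (hg : g ≫ (X ↘ Spec (CommRingCat.of k)) = (Y ↘ Spec (CommRingCat.of k)))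
    (T : X.Opens) (a : k) :
    (g.app T).hom (baseHom X T a) = baseHom Y (g ⁻¹ᵁ T) a := by
  have h1 : (g.app T).hom (resR (le_top : T ≤ ⊤) (Coh.toGlobal (X ↘ Spec (CommRingCat.of k)) a)) =
      resR (le_top : g ⁻¹ᵁ T ≤ ⊤) (g.appTop.hom (Coh.toGlobal (X ↘ Spec (CommRingCat.of k)) a)) :=
    ConcreteCategory.congr_hom (g.naturality (homOfLE (le_top : T ≤ ⊤)).op) _
  refine h1.trans ?_
  change _ = resR (le_top : g ⁻¹ᵁ T ≤ ⊤) (Coh.toGlobal (Y ↘ Spec (CommRingCat.of k)) a)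
  congr 1
  change (g.appTop).hom ((X ↘ Spec (CommRingCat.of k)).appTop.hom _) =
    (Y ↘ Spec (CommRingCat.of k)).appTop.hom _
  rw [← hg, Scheme.Hom.comp_appTop]
  rfl

theorem app_resR {X Y : Scheme.{u}} (g : Y ⟶ X) {U V : X.Opens} (h : V ≤ U) (a : Γ(X, U)) :
    (g.app V).hom (resR h a) = resR (show g ⁻¹ᵁ V ≤ g ⁻¹ᵁ U from fun _ hx => h hx) ((g.app U).hom a) :=
  ConcreteCategory.congr_hom (g.naturality (homOfLE h).op) a

/-- The pullback map on `H¹(-, O)` in terms of two charts. -/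
theorem exists_pullback {X Y : Scheme.{u}} [X.Over (Spec (CommRingCat.of k))]
    [Y.Over (Spec (CommRingCat.of k))]
    (g : Y ⟶ X) (hg : g ≫ (X ↘ Spec (CommRingCat.of k)) = (Y ↘ Spec (CommRingCat.of k)))
    {U V : X.Opens} (hU : IsAffineOpen U) (hV : IsAffineOpen V) (hcov : U ⊔ V = ⊤)
    (hcov' : g ⁻¹ᵁ U ⊔ g ⁻¹ᵁ V = ⊤) :
    ∃ h : Coh.HH X (Coh.structureModule X) 1 →ₗ[k] Coh.HH Y (Coh.structureModule Y) 1,
      ∀ z : Γ(X, U ⊓ V), h (δO hcov z) = δO hcov' ((g.app (U ⊓ V)).hom z) := by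
  refine exists_lift (k := k) (fun c z => baseHom X (U ⊓ V) c * z) (δO hcov)
    (δO_surjective hcov hU hV) (fun c z => δO_baseMul hcov c z)
    ((δO hcov').comp ((g.app (U ⊓ V)).hom : Γ(X, U ⊓ V) →+ Γ(Y, g ⁻¹ᵁ (U ⊓ V)))) ?_ ?_
  · intro c z
    have h1 : (g.app (U ⊓ V)).hom (baseHom X (U ⊓ V) c * z) =
        baseHom Y (g ⁻¹ᵁ (U ⊓ V)) c * (g.app (U ⊓ V)).hom z := by
      rw [map_mul, app_baseHom g hg]
    exact (congrArg (δO hcov') h1).trans (δO_baseMul hcov' c _)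
  · intro z hz
    obtain ⟨a, b, hab⟩ := (δO_eq_zero_iff hcov z).1 hz
    refine (δO_eq_zero_iff hcov' ((g.app (U ⊓ V)).hom z)).2 ⟨(g.app U).hom a, (g.app V).hom b, ?_⟩
    have h2 : (g.app (U ⊓ V)).hom z = (g.app (U ⊓ V)).hom (resR inf_le_left a) -
        (g.app (U ⊓ V)).hom (resR inf_le_right b) := by
      rw [← hab, map_sub]
    rw [h2, app_resR, app_resR]
    rfl

variable {X : Scheme.{u}} {n : ℕ} (W : Fin n → X.Opens)
    (hd : ∀ i j, i ≠ j → Disjoint (W i : Set X) (W j)) (hc : ∀ x : X, ∃ i, x ∈ W i)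

include hd hc in
/-- `∑ h¹(W i, O) ≤ h¹(X, O)`. -/
theorem sum_genus_le (f : X ⟶ Spec (CommRingCat.of k)) {U V : X.Opens} (hU : IsAffineOpen U)
    (hV : IsAffineOpen V) (hcov : U ⊔ V = ⊤)
    (hfin : letI : X.Over (Spec (CommRingCat.of k)) := ⟨f⟩
      Module.Finite k (Coh.HH X (Coh.structureModule X) 1)) :
    ∑ i, Models.curveGenus k (W i) ((W i).ι ≫ f) ≤ Models.curveGenus k X f := by
  let _ : X.Over (Spec (CommRingCat.of k)) := ⟨f⟩
  let _ : ∀ i, (W i : Scheme.{u}).Over (Spec (CommRingCat.of k)) := fun i => ⟨(W i).ι ≫ f⟩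
  have hci := isClosedImmersion_ι W hd hc
  have hcov' : ∀ i, (W i).ι ⁻¹ᵁ U ⊔ (W i).ι ⁻¹ᵁ V = ⊤ := fun i => by
    rw [← Scheme.Hom.preimage_sup, hcov]
    rfl
  choose h hh using fun i => exists_pullback (k := k) (W i).ι rfl hU hV hcov (hcov' i)
  have hsurj : Function.Surjective (LinearMap.pi h) := by
    intro y
    choose z hz using fun i => δO_surjective (hcov' i) (hU.preimage (W i).ι) (hV.preimage (W i).ι) (y i)
    obtain ⟨s, hs⟩ := exists_glue W hd hc (U ⊓ V) z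
    refine ⟨δO hcov s, funext fun i => ?_⟩
    refine (hh i s).trans ?_
    rw [← hz i]
    exact congrArg (δO (hcov' i)) (hs i)
  have h1 := LinearMap.finrank_le_finrank_of_surjective (f := LinearMap.pi h) hsurj
  have h2 : ∀ i, Module.Finite k (Coh.HH (W i : Scheme.{u}) (Coh.structureModule (W i : Scheme.{u})) 1) :=
    fun i => Module.Finite.of_surjective ((LinearMap.proj i).comp (LinearMap.pi h)) (by
      classical
      rw [LinearMap.coe_comp]
      exact (Function.surjective_eval i).comp hsurj)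
  rw [Module.finrank_pi_fintype] at h1
  exact h1

end Groth.Agent.Models.H73.DisjCoh
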