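import Groth.Agent.Localalg.GorSocle
import Groth.Agent.S0343
import Mathlib.RingTheory.KrullDimension.NonZeroDivisors
import Mathlib.RingTheory.KrullDimension.LocalRing

/-!
# Gorenstein multicross points: the socle bound

`socle_mod`: in a Gorenstein local ring of dimension `≤ 1` the socle modulo a regular element is generated
by any of its nonzero elements.
`exists_generator`: if `A ⊇ O` is a ring extension with `𝔪 A ⊆ O` then `A = O + O a` for some `a`.
-/

set_option autoImplicit false
universe u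

open CategoryTheory IsLocalRing

namespace Groth.Agent.Models.H73.NodeLocal

theorem le_zero_of_add_one_le (a : WithBot ℕ∞) (h : a + 1 ≤ 1) : a ≤ 0 := by
  induction a with
  | bot => exact bot_le
  | coe a =>
    induction a with
    | top => exact absurd h (by decide)
    | coe a => norm_cast at h ⊢; omega

variable {O : Type u} [CommRing O] [IsLocalRing O] [IsNoetherianRing O]

theorem socle_mod (h : LocCoh.IsGorensteinLocalRing O) {f : O} (hf : f ∈ maximalIdeal O)
    (hreg : IsSMulRegular O f) (hdim : ringKrullDim O ≤ 1) (x y : O)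
    (hx : ∀ t ∈ maximalIdeal O, t * x ∈ Ideal.span {f})
    (hy : ∀ t ∈ maximalIdeal O, t * y ∈ Ideal.span {f})
    (hx0 : x ∉ Ideal.span {f}) : ∃ c : O, y - c * x ∈ Ideal.span {f} := by
  let R := O ⧸ Ideal.span {f}
  have hlt : Ideal.span {f} ≤ maximalIdeal O := (Ideal.span_singleton_le_iff_mem _).2 hf
  have hnt : Nontrivial R := Ideal.Quotient.nontrivial_iff.2 (fun h => by
    rw [h, top_le_iff] at hlt
    exact (maximalIdeal.isMaximal O).ne_top hlt)
  have hloc : IsLocalRing R := IsLocalRing.of_surjective' (Ideal.Quotient.mk _) Ideal.Quotient.mk_surjective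
  have hG : LocCoh.IsGorensteinLocalRing R := (Groth.Agent.S0343.result O f hf hreg).1 h
  have hnzd : f ∈ nonZeroDivisors O := by
    rw [mem_nonZeroDivisors_iff_right]
    intro z hz
    exact hreg.right_eq_zero_of_smul (by rwa [smul_eq_mul, mul_comm])
  have hd0 : ringKrullDim R ≤ 0 := by
    have h1 := ringKrullDim_quotient_succ_le_of_nonZeroDivisor hnzd
    exact le_zero_of_add_one_le _ (h1.trans hdim)
  have hd : Ring.KrullDimLE 0 R := by
    rw [Ring.krullDimLE_iff]
    exact_mod_cast hd0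
  have hmax : ∀ z : R, z ∈ maximalIdeal R → ∃ t ∈ maximalIdeal O, Ideal.Quotient.mk _ t = z := by
    intro z hz
    obtain ⟨t, rfl⟩ := Ideal.Quotient.mk_surjective z
    refine ⟨t, ?_, rfl⟩
    rw [mem_maximalIdeal, mem_nonunits_iff] at hz ⊢
    exact fun h => hz (h.map _)
  obtain ⟨n, hn⟩ := LocCoh.IsGorensteinLocalRing.exists_hasInjectiveDimensionLT (A := R)
  have h1 := Localalg.GorDepth.hasInjectiveDimensionLT_one (ModuleCat.of R R) n hn (fun z hz hr => by
    have hz' : IsNilpotent z := by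
      have := Ring.KrullDimLE.isNilpotent_iff_mem_maximalIdeal (x := z) (R := R)
      exact this.2 hz
    obtain ⟨m, hm⟩ := hz'
    have h2 : IsSMulRegular R (z ^ m) := hr.pow m
    rw [hm] at h2
    have h3 : (1 : R) = 0 := h2.right_eq_zero_of_smul (by simp)
    exact one_ne_zero h3)
  obtain ⟨σ, hσ, hσ'⟩ := Localalg.GorSocle.exists_socle_generator h1
  obtain ⟨c1, hc1⟩ := hσ' (Ideal.Quotient.mk _ x) (fun a ha => by
    obtain ⟨t, ht, rfl⟩ := hmax a ha
    rw [← map_mul, Ideal.Quotient.eq_zero_iff_mem]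
    exact hx t ht)
  obtain ⟨c2, hc2⟩ := hσ' (Ideal.Quotient.mk _ y) (fun a ha => by
    obtain ⟨t, ht, rfl⟩ := hmax a ha
    rw [← map_mul, Ideal.Quotient.eq_zero_iff_mem]
    exact hy t ht)
  have hu : IsUnit c1 := by
    by_contra hcon
    apply hx0
    rw [← Ideal.Quotient.eq_zero_iff_mem, hc1]
    have h4 : c1 ∈ maximalIdeal R := (mem_maximalIdeal _).2 hcon
    have h5 : c1 • (1 : R ⧸ maximalIdeal R) = 0 := by
      rw [Algebra.smul_def, mul_one]
      exact Ideal.Quotient.eq_zero_iff_mem.2 h4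
    have h6 := congrArg σ h5
    rwa [map_smul, map_zero, smul_eq_mul] at h6
  obtain ⟨d, hd⟩ := hu.exists_left_inv
  obtain ⟨c, hc⟩ := Ideal.Quotient.mk_surjective (c2 * d)
  refine ⟨c, ?_⟩
  rw [← Ideal.Quotient.eq_zero_iff_mem, map_sub, map_mul, hc, hc1, hc2, sub_eq_zero]
  calc c2 * σ 1 = c2 * (d * c1) * σ 1 := by rw [hd, mul_one]
    _ = c2 * d * (c1 * σ 1) := by ring

variable {A : Type u} [CommRing A] [Algebra O A]

/-- If `𝔪 A ⊆ O` and `O` is Gorenstein then `A / O` is generated by any nonzero element. -/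
theorem exists_generator (h : LocCoh.IsGorensteinLocalRing O) (hdim : ringKrullDim O ≤ 1)
    (hinj : Function.Injective (algebraMap O A))
    {f : O} (hf : f ∈ maximalIdeal O) (hfA : ∀ a : A, f • a = 0 → a = 0)
    (hmA : ∀ t ∈ maximalIdeal O, ∀ a : A, ∃ o : O, algebraMap O A o = t • a)
    (a0 : A) (ha0 : ∀ o : O, algebraMap O A o ≠ a0) (a : A) :
    ∃ c o : O, a = c • a0 + algebraMap O A o := by
  have hreg : IsSMulRegular O f := by
    intro x y hxy
    apply hinj
    rw [← sub_eq_zero, ← map_sub]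
    apply hfA
    rw [Algebra.smul_def, ← map_mul]
    have : f * (x - y) = 0 := by
      rw [mul_sub, sub_eq_zero]
      exact hxy
    rw [this, map_zero]
  obtain ⟨x, hx⟩ := hmA f hf a0
  obtain ⟨y, hy⟩ := hmA f hf a
  have key : ∀ (z : O) (b : A), algebraMap O A z = f • b → ∀ t ∈ maximalIdeal O,
      t * z ∈ Ideal.span {f} := by
    intro z b hz t ht
    obtain ⟨o, ho⟩ := hmA t ht b
    rw [Ideal.mem_span_singleton']
    refine ⟨o, hinj ?_⟩
    rw [map_mul, map_mul, hz, ho, Algebra.smul_def, Algebra.smul_def]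
    ring
  obtain ⟨c, hc⟩ := socle_mod h hf hreg hdim x y (key x a0 hx) (key y a hy) (by
    intro h1
    rw [Ideal.mem_span_singleton'] at h1
    obtain ⟨o, rfl⟩ := h1
    apply ha0 o
    rw [← sub_eq_zero]
    apply hfA
    rw [smul_sub, ← hx, Algebra.smul_def, ← map_mul, mul_comm f o, sub_self])
  rw [Ideal.mem_span_singleton'] at hc
  obtain ⟨o, ho⟩ := hc
  refine ⟨c, o, ?_⟩
  rw [← sub_eq_zero]
  apply hfA
  have h1 := congrArg (algebraMap O A) ho
  rw [map_mul, map_sub, map_mul, hx, hy] at h1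
  simp only [Algebra.smul_def] at h1 ⊢
  linear_combination (-1 : A) * h1

end Groth.Agent.Models.H73.NodeLocal
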