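import Groth.Agent.Models.H73.NodeLocal
import Mathlib.RingTheory.DiscreteValuationRing.TFAE
import Mathlib.RingTheory.RegularLocalRing.Defs
import Mathlib.RingTheory.LocalProperties.Basic
import Mathlib.RingTheory.Jacobson.Ideal

/-!
# Gorenstein multicross points over an algebraically closed field are nodes (local algebra)

`O ⊆ A` a finite extension of a Noetherian local ring of dimension `≤ 1`, `A` semi-local with discrete valuation
rings as local rings, all residue fields equal to that of `O`, and the Jacobson radical of `A` contained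
in `O`.  If `O` is Gorenstein then `O = A` or `O` has a cotangent space of dimension two, generated by `x, y`
with `x y ∈ 𝔪³`.
-/

set_option autoImplicit false
universe u

open IsLocalRing

namespace Groth.Agent.Models.H73.NodeLocal2

open NodeLocal

variable (O A : Type u) [CommRing O] [IsLocalRing O] [CommRing A] [Algebra O A]

/-- The situation of the normalization of a multicross point. -/
structure MC : Prop where
  inj : Function.Injective (algebraMap O A)
  comap : ∀ P : Ideal A, P.IsMaximal → P.comap (algebraMap O A) = maximalIdeal O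
  res : ∀ P : Ideal A, P.IsMaximal → ∀ a : A, ∃ o : O, a - algebraMap O A o ∈ P
  rad : ∀ a : A, (∀ P : Ideal A, P.IsMaximal → a ∈ P) → ∃ o : O, algebraMap O A o = a
  dvr : ∀ (P : Ideal A) (_ : P.IsMaximal),
    ∃ (_ : IsDomain (Localization.AtPrime P)), IsDiscreteValuationRing (Localization.AtPrime P)

variable {O A}

theorem MC.mem_iff (h : MC O A) {P : Ideal A} (hP : P.IsMaximal) {o : O} :
    algebraMap O A o ∈ P ↔ o ∈ maximalIdeal O := by
  rw [← h.comap P hP, Ideal.mem_comap]

theorem MC.exists_max (h : MC O A) : ∃ P : Ideal A, P.IsMaximal := by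
  have : Nontrivial A := h.inj.nontrivial
  exact Ideal.exists_maximal A

theorem MC.hmA (h : MC O A) (t : O) (ht : t ∈ maximalIdeal O) (a : A) :
    ∃ o : O, algebraMap O A o = t • a := by
  apply h.rad
  intro P hP
  rw [Algebra.smul_def]
  exact P.mul_mem_right _ ((h.mem_iff hP).2 ht)

theorem MC.mem_max (h : MC O A) {o : O} (ho : ∀ P : Ideal A, P.IsMaximal → algebraMap O A o ∈ P) :
    o ∈ maximalIdeal O := by
  obtain ⟨P, hP⟩ := h.exists_max
  exact (h.mem_iff hP).1 (ho P hP)

/-- The structure of the extension when it is nontrivial. -/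
theorem MC.exists_two [IsNoetherianRing O] (h : MC O A) (hG : LocCoh.IsGorensteinLocalRing O)
    (hdim : ringKrullDim O ≤ 1) {f : O} (hf : f ∈ maximalIdeal O) (hfA : ∀ a : A, f • a = 0 → a = 0)
    (hne : ¬ Function.Surjective (algebraMap O A)) :
    ∃ (P Q : Ideal A) (e : A), P.IsMaximal ∧ Q.IsMaximal ∧
      (∀ N : Ideal A, N.IsMaximal → N = P ∨ N = Q) ∧ P ≠ Q ∧ e ∈ P ∧ 1 - e ∈ Q ∧
      (∀ a : A, ∃ c o : O, a = c • e + algebraMap O A o) := by
  obtain ⟨P, hP⟩ := h.exists_max
  have hgen : ∀ a0 : A, (∀ o : O, algebraMap O A o ≠ a0) → ∀ a : A,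
      ∃ c o : O, a = c • a0 + algebraMap O A o :=
    exists_generator hG hdim h.inj hf hfA h.hmA
  obtain ⟨a0, ha0⟩ : ∃ a0 : A, ∀ o : O, algebraMap O A o ≠ a0 := by
    by_contra! hcon
    exact hne hcon
  obtain ⟨oP, hoP⟩ := h.res P hP a0
  let a1 : A := a0 - algebraMap O A oP
  have ha1 : ∀ o : O, algebraMap O A o ≠ a1 := by
    intro o ho
    apply ha0 (o + oP)
    rw [map_add, ho]
    simp [a1]
  obtain ⟨Q, hQ, hQP⟩ : ∃ Q : Ideal A, Q.IsMaximal ∧ Q ≠ P := by
    by_contra! hcon
    obtain ⟨o, ho⟩ := h.rad a1 (fun N hN => by rw [hcon N hN]; exact hoP)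
    exact ha1 o ho
  obtain ⟨oQ, hoQ⟩ := h.res Q hQ a1
  have hPQ : ¬ P ≤ Q := fun hle => hQP (hP.eq_of_le hQ.ne_top hle).symm
  obtain ⟨p, hpP, hpQ⟩ := Set.not_subset.1 hPQ
  obtain ⟨c, o, hco⟩ := hgen a1 ha1 p
  have ho : o ∈ maximalIdeal O := by
    rw [← h.mem_iff hP]
    have : algebraMap O A o = p - c • a1 := by rw [hco]; ring
    rw [this, Algebra.smul_def]
    exact P.sub_mem hpP (P.mul_mem_left _ hoP)
  have hu : IsUnit oQ := by
    by_contra hcon
    apply hpQ
    have h1 : oQ ∈ maximalIdeal O := (mem_maximalIdeal _).2 hcon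
    have h2 : a1 ∈ Q := by
      have := Q.add_mem hoQ ((h.mem_iff hQ).2 h1)
      simpa using this
    change p ∈ Q
    rw [hco, Algebra.smul_def]
    exact Q.add_mem (Q.mul_mem_left _ h2) ((h.mem_iff hQ).2 ho)
  obtain ⟨d, hd⟩ := hu.exists_left_inv
  let e : A := d • a1
  have heP : e ∈ P := by
    change d • a1 ∈ P
    rw [Algebra.smul_def]
    exact P.mul_mem_left _ hoP
  have heQ : 1 - e ∈ Q := by
    have hd' : algebraMap O A d * algebraMap O A oQ = 1 := by rw [← map_mul, hd, map_one]
    have h1 : 1 - e = - (algebraMap O A d * (a1 - algebraMap O A oQ)) := by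
      change 1 - d • a1 = _
      rw [Algebra.smul_def]
      linear_combination (-1 : A) * hd'
    rw [h1]
    exact Q.neg_mem (Q.mul_mem_left _ hoQ)
  have he : ∀ o : O, algebraMap O A o ≠ e := by
    intro o ho
    have h1 : o ∈ maximalIdeal O := by rw [← h.mem_iff hP, ho]; exact heP
    have h2 : (1 - o) ∈ maximalIdeal O := by
      rw [← h.mem_iff hQ, map_sub, map_one, ho]; exact heQ
    have h3 : (1 : O) ∈ maximalIdeal O := by
      have := (maximalIdeal O).add_mem h1 h2
      rwa [add_sub_cancel] at this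
    exact (Ideal.ne_top_iff_one _).1 (maximalIdeal.isMaximal O).ne_top h3
  have hgen' := hgen e he
  -- elements of `P`
  have hPform : ∀ z ∈ P, ∃ c o : O, o ∈ maximalIdeal O ∧ z = c • e + algebraMap O A o := by
    intro z hz
    obtain ⟨c, o, hco⟩ := hgen' z
    refine ⟨c, o, ?_, hco⟩
    rw [← h.mem_iff hP]
    have : algebraMap O A o = z - c • e := by rw [hco]; ring
    rw [this, Algebra.smul_def]
    exact P.sub_mem hz (P.mul_mem_left _ heP)
  have hQform : ∀ z ∈ Q, ∃ c o : O, o ∈ maximalIdeal O ∧ z = c • (1 - e) + algebraMap O A o := by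
    intro z hz
    obtain ⟨c, o, hco⟩ := hgen' z
    refine ⟨-c, c + o, ?_, ?_⟩
    · rw [← h.mem_iff hQ]
      have : algebraMap O A (c + o) = z + c • (1 - e) := by
        rw [hco, map_add, Algebra.smul_def, Algebra.smul_def]; ring
      rw [this, Algebra.smul_def]
      exact Q.add_mem hz (Q.mul_mem_left _ heQ)
    · rw [hco, map_add, Algebra.smul_def, Algebra.smul_def, map_neg]; ring
  have hee : ∀ N : Ideal A, N.IsMaximal → e * (1 - e) ∈ N := by
    obtain ⟨c, o, ho, hco⟩ := hPform (e * (1 - e)) (P.mul_mem_right _ heP)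
    have hc : c ∈ maximalIdeal O := by
      have h1 : e * (1 - e) ∈ Q := Q.mul_mem_left _ heQ
      rw [← h.mem_iff hQ]
      have h2 : algebraMap O A c = e * (1 - e) - algebraMap O A o + algebraMap O A c * (1 - e) := by
        rw [hco, Algebra.smul_def]; ring
      rw [h2]
      exact Q.add_mem (Q.sub_mem h1 ((h.mem_iff hQ).2 ho)) (Q.mul_mem_left _ heQ)
    intro N hN
    rw [hco, Algebra.smul_def]
    exact N.add_mem (N.mul_mem_right _ ((h.mem_iff hN).2 hc)) ((h.mem_iff hN).2 ho)
  refine ⟨P, Q, e, hP, hQ, fun N hN => ?_, hQP.symm, heP, heQ, hgen'⟩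
  rcases hN.isPrime.mem_or_mem (hee N hN) with h1 | h1
  · left
    refine (hP.eq_of_le hN.ne_top fun z hz => ?_).symm
    obtain ⟨c, o, ho, rfl⟩ := hPform z hz
    rw [Algebra.smul_def]
    exact N.add_mem (N.mul_mem_left _ h1) ((h.mem_iff hN).2 ho)
  · right
    refine (hQ.eq_of_le hN.ne_top fun z hz => ?_).symm
    obtain ⟨c, o, ho, rfl⟩ := hQform z hz
    rw [Algebra.smul_def]
    exact N.add_mem (N.mul_mem_left _ h1) ((h.mem_iff hN).2 ho)

end Groth.Agent.Models.H73.NodeLocal2
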