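import Groth.Agent.Models.H73.NodeLocal2

/-!
# Gorenstein multicross points over an algebraically closed field are nodes (local algebra), II
-/

set_option autoImplicit false
universe u

open IsLocalRing

namespace Groth.Agent.Models.H73.NodeLocal3

open NodeLocal NodeLocal2

section DVR

variable {D : Type u} [CommRing D] [IsDomain D] [IsDiscreteValuationRing D]

theorem span_eq_of_not_mem_sq {x : D} (hx : x ∈ maximalIdeal D) (hx2 : x ∉ maximalIdeal D ^ 2) :
    Ideal.span {x} = maximalIdeal D := by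
  obtain ⟨ϖ, hϖ⟩ := IsDiscreteValuationRing.exists_irreducible D
  have hm : maximalIdeal D = Ideal.span {ϖ} := hϖ.maximalIdeal_eq
  have hx0 : Ideal.span {x} ≠ ⊥ := by
    intro h
    rw [Ideal.span_singleton_eq_bot] at h
    apply hx2
    rw [h]
    exact Ideal.zero_mem _
  obtain ⟨n, hn⟩ := IsDiscreteValuationRing.ideal_eq_span_pow_irreducible hx0 hϖ
  rw [← Ideal.span_singleton_pow, ← hm] at hn
  have h1 : n ≠ 0 := by
    rintro rfl
    rw [pow_zero, Ideal.one_eq_top, Ideal.span_singleton_eq_top] at hn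
    exact (mem_maximalIdeal _).1 hx hn
  have h2 : n < 2 := by
    by_contra hcon
    apply hx2
    have h3 : x ∈ maximalIdeal D ^ n := by
      rw [← hn]
      exact Ideal.mem_span_singleton_self x
    exact Ideal.pow_le_pow_right (by omega) h3
  have h3 : n = 1 := by omega
  rw [hn, h3, pow_one]

theorem not_maximalIdeal_le_sq : ¬ maximalIdeal D ≤ maximalIdeal D ^ 2 := by
  intro h
  have h1 : IsIdempotentElem (maximalIdeal D) := by
    rw [IsIdempotentElem, ← pow_two]
    exact le_antisymm (Ideal.pow_le_self (by norm_num)) h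
  rcases (Ideal.isIdempotentElem_iff_eq_bot_or_top_of_isLocalRing _).1 h1 with h2 | h2
  · exact IsDiscreteValuationRing.not_a_field D h2
  · exact (maximalIdeal.isMaximal D).ne_top h2

end DVR

variable {A : Type u} [CommRing A]

theorem exists_not_mem_sq {P Q : Ideal A} (hP : P.IsMaximal) (hQ : Q.IsMaximal) (hPQ : P ≠ Q)
    [IsDomain (Localization.AtPrime P)] [IsDiscreteValuationRing (Localization.AtPrime P)] :
    ∃ z ∈ P ⊓ Q, algebraMap A (Localization.AtPrime P) z ∉ maximalIdeal (Localization.AtPrime P) ^ 2 := by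
  by_contra! hcon
  have hQP : ¬ Q ≤ P := fun hle => hPQ (hQ.eq_of_le hP.ne_top hle).symm
  obtain ⟨q, hqQ, hqP⟩ := Set.not_subset.1 hQP
  apply not_maximalIdeal_le_sq (D := Localization.AtPrime P)
  conv_lhs => rw [← Localization.AtPrime.map_eq_maximalIdeal]
  rw [Ideal.map_le_iff_le_comap]
  intro p hp
  rw [Ideal.mem_comap]
  have h1 := hcon (p * q) ⟨P.mul_mem_right _ hp, Q.mul_mem_left _ hqQ⟩
  have hu : IsUnit (algebraMap A (Localization.AtPrime P) q) :=
    IsLocalization.map_units (Localization.AtPrime P) (⟨q, hqP⟩ : P.primeCompl)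
  rw [map_mul] at h1
  exact (Ideal.mul_unit_mem_iff_mem _ hu).1 h1

/-- A common uniformizer of a semi-local ring with two maximal ideals and discrete valuation
rings as localizations. -/
theorem exists_uniformizer {P Q : Ideal A} (hP : P.IsMaximal) (hQ : Q.IsMaximal) (hPQ : P ≠ Q)
    (hall : ∀ N : Ideal A, N.IsMaximal → N = P ∨ N = Q)
    (hdvr : ∀ (P : Ideal A) (_ : P.IsMaximal),
      ∃ (_ : IsDomain (Localization.AtPrime P)), IsDiscreteValuationRing (Localization.AtPrime P)) :
    ∃ t : A, t ∈ P ⊓ Q ∧ ∀ z ∈ P ⊓ Q, ∃ w, z = t * w := by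
  obtain ⟨hP1, hP2⟩ := hdvr P hP
  obtain ⟨hQ1, hQ2⟩ := hdvr Q hQ
  obtain ⟨z1, hz1, hz1'⟩ := exists_not_mem_sq hP hQ hPQ
  obtain ⟨z2, hz2, hz2'⟩ := exists_not_mem_sq hQ hP hPQ.symm
  obtain ⟨t, ht, htP, htQ⟩ : ∃ t ∈ P ⊓ Q,
      algebraMap A (Localization.AtPrime P) t ∉ maximalIdeal (Localization.AtPrime P) ^ 2 ∧
      algebraMap A (Localization.AtPrime Q) t ∉ maximalIdeal (Localization.AtPrime Q) ^ 2 := by
    by_cases h1 : algebraMap A (Localization.AtPrime Q) z1 ∈ maximalIdeal (Localization.AtPrime Q) ^ 2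
    · by_cases h2 : algebraMap A (Localization.AtPrime P) z2 ∈ maximalIdeal (Localization.AtPrime P) ^ 2
      · refine ⟨z1 + z2, Ideal.add_mem _ hz1 ⟨hz2.2, hz2.1⟩, ?_, ?_⟩
        · rw [map_add]
          intro h3
          exact hz1' ((Ideal.add_mem_iff_left _ h2).1 h3)
        · rw [map_add]
          intro h3
          exact hz2' ((Ideal.add_mem_iff_right _ h1).1 h3)
      · exact ⟨z2, ⟨hz2.2, hz2.1⟩, h2, hz2'⟩
    · exact ⟨z1, hz1, hz1', h1⟩
  refine ⟨t, ht, fun z hz => ?_⟩
  have h : z ∈ Ideal.span {t} := by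
    apply Ideal.mem_of_localization_maximal
    intro N hN
    rcases hall N hN with rfl | rfl
    · rw [Ideal.map_span, Set.image_singleton, span_eq_of_not_mem_sq _ htP,
        ← Localization.AtPrime.map_eq_maximalIdeal]
      · exact Ideal.mem_map_of_mem _ hz.1
      · rw [← Localization.AtPrime.map_eq_maximalIdeal]
        exact Ideal.mem_map_of_mem _ ht.1
    · rw [Ideal.map_span, Set.image_singleton, span_eq_of_not_mem_sq _ htQ,
        ← Localization.AtPrime.map_eq_maximalIdeal]
      · exact Ideal.mem_map_of_mem _ hz.2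
      · rw [← Localization.AtPrime.map_eq_maximalIdeal]
        exact Ideal.mem_map_of_mem _ ht.2
  obtain ⟨w, hw⟩ := Ideal.mem_span_singleton'.1 h
  exact ⟨w, by rw [← hw, mul_comm]⟩

end Groth.Agent.Models.H73.NodeLocal3
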