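import Groth.Agent.Models.H73.NodeLocal3

/-!
# Gorenstein multicross points over an algebraically closed field are nodes (local algebra), III

`MC.node_or_regular`: the conclusion in the shape of the hypotheses of `S1631`.
-/

set_option autoImplicit false
universe u

open IsLocalRing

namespace Groth.Agent.Models.H73.NodeLocal4

open NodeLocal NodeLocal2 NodeLocal3

variable {O A : Type u} [CommRing O] [IsLocalRing O] [IsNoetherianRing O] [CommRing A] [Algebra O A]

theorem regular_of_surjective (h : MC O A) (hs : Function.Surjective (algebraMap O A)) :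
    IsRegularLocalRing O := by
  let e : O ≃+* A := RingEquiv.ofBijective (algebraMap O A) ⟨h.inj, hs⟩
  obtain ⟨P, hP⟩ := h.exists_max
  obtain ⟨h1, h2⟩ := h.dvr P hP
  have hloc : IsLocalRing A := e.isLocalRing
  have hPm : P = maximalIdeal A := IsLocalRing.eq_maximalIdeal hP
  have h3 : IsRegularLocalRing (Localization.AtPrime P) := inferInstance
  let e2 : A ≃ₐ[A] Localization.AtPrime P :=
    IsLocalization.atUnits A P.primeCompl (fun x hx => by
      have hx' : x ∉ maximalIdeal A := by rw [← hPm]; exact hx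
      rw [mem_maximalIdeal, mem_nonunits_iff, not_not] at hx'
      exact hx')
  exact IsRegularLocalRing.of_ringEquiv (e.trans e2.toRingEquiv).symm

/-- The conclusion about the local ring of a nodal point. -/
def IsNodeLike (O : Type u) [CommRing O] [IsLocalRing O] : Prop :=
  Module.finrank (ResidueField O) (CotangentSpace O) = 2 ∧
    ∃ x y a b c : O, x ∈ maximalIdeal O ∧ y ∈ maximalIdeal O ∧
      Ideal.span {x, y} ⊔ maximalIdeal O ^ 2 = maximalIdeal O ∧
      residue O (4 * a * c - b ^ 2) ≠ 0 ∧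
      a * x ^ 2 + b * x * y + c * y ^ 2 ∈ maximalIdeal O ^ 3

theorem finrank_cotangentSpace_eq_two {x y : O} (hx : x ∈ maximalIdeal O) (hy : y ∈ maximalIdeal O)
    (hspan : maximalIdeal O ≤ Ideal.span {x, y})
    (hind : ∀ α β : O, α * x + β * y ∈ maximalIdeal O ^ 2 → α ∈ maximalIdeal O ∧ β ∈ maximalIdeal O) :
    Module.finrank (ResidueField O) (CotangentSpace O) = 2 := by
  let v : Fin 2 → CotangentSpace O :=
    ![(maximalIdeal O).toCotangent ⟨x, hx⟩, (maximalIdeal O).toCotangent ⟨y, hy⟩]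
  have hsm : ∀ (α : O) (z : CotangentSpace O), residue O α • z = α • z := fun α z => by
    rw [← algebraMap_smul (ResidueField O) α z]; rfl
  have hli : LinearIndependent (ResidueField O) v := by
    rw [LinearIndependent.pair_iff]
    intro s t hst
    obtain ⟨α, rfl⟩ := residue_surjective s
    obtain ⟨β, rfl⟩ := residue_surjective t
    rw [hsm, hsm, ← map_smul, ← map_smul, ← map_add, Ideal.toCotangent_eq_zero] at hst
    obtain ⟨h1, h2⟩ := hind α β hst
    exact ⟨(residue_eq_zero_iff _).2 h1, (residue_eq_zero_iff _).2 h2⟩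
  have hsp : ⊤ ≤ Submodule.span (ResidueField O) (Set.range v) := by
    intro z _
    obtain ⟨⟨w, hw⟩, rfl⟩ := (maximalIdeal O).toCotangent_surjective z
    obtain ⟨α, β, hab⟩ := Ideal.mem_span_pair.1 (hspan hw)
    have h1 : (⟨w, hw⟩ : maximalIdeal O) = α • ⟨x, hx⟩ + β • ⟨y, hy⟩ := by
      ext
      exact hab.symm
    rw [h1, map_add, map_smul, map_smul, ← hsm, ← hsm]
    exact Submodule.add_mem _ (Submodule.smul_mem _ _ (Submodule.subset_span ⟨0, rfl⟩))
      (Submodule.smul_mem _ _ (Submodule.subset_span ⟨1, rfl⟩))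
  have := Module.finrank_eq_card_basis (Module.Basis.mk hli hsp)
  rwa [Fintype.card_fin] at this

theorem node_or_regular (h : MC O A) (hG : LocCoh.IsGorensteinLocalRing O)
    (hdim : ringKrullDim O ≤ 1) {f : O} (hf : f ∈ maximalIdeal O) (hfA : ∀ a : A, f • a = 0 → a = 0) :
    IsRegularLocalRing O ∨ IsNodeLike O := by
  by_cases hs : Function.Surjective (algebraMap O A)
  · exact Or.inl (regular_of_surjective h hs)
  right
  obtain ⟨P, Q, e, hP, hQ, hall, hPQ, heP, heQ, hgen⟩ := h.exists_two hG hdim hf hfA hs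
  obtain ⟨t, ht, hdiv⟩ := exists_uniformizer hP hQ hPQ hall h.dvr
  have hJ : ∀ z : A, z ∈ P ⊓ Q → ∃ o : O, algebraMap O A o = z := by
    intro z hz
    apply h.rad
    intro N hN
    rcases hall N hN with rfl | rfl
    exacts [hz.1, hz.2]
  have hmem : ∀ o : O, algebraMap O A o ∈ P ⊓ Q ↔ o ∈ maximalIdeal O := fun o =>
    ⟨fun ho => (h.mem_iff hP).1 ho.1, fun ho => ⟨(h.mem_iff hP).2 ho, (h.mem_iff hQ).2 ho⟩⟩
  -- `t` is a nonzerodivisor
  have htreg : ∀ a : A, t * a = 0 → a = 0 := by
    intro a ha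
    obtain ⟨w, hw⟩ := hdiv _ ((hmem f).2 hf)
    apply hfA
    rw [Algebra.smul_def, hw, mul_comm t w, mul_assoc, ha, mul_zero]
  obtain ⟨x, hx⟩ := hJ (t * e) (Ideal.mul_mem_right _ _ ht)
  obtain ⟨y, hy⟩ := hJ (t * (1 - e)) (Ideal.mul_mem_right _ _ ht)
  have hxm : x ∈ maximalIdeal O := (hmem x).1 (by rw [hx]; exact Ideal.mul_mem_right _ _ ht)
  have hym : y ∈ maximalIdeal O := (hmem y).1 (by rw [hy]; exact Ideal.mul_mem_right _ _ ht)
  have hτ : algebraMap O A (x + y) = t := by
    rw [map_add, hx, hy]; ring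
  have hτm : x + y ∈ maximalIdeal O := Ideal.add_mem _ hxm hym
  have hspan : maximalIdeal O ≤ Ideal.span {x, y} := by
    intro z hz
    obtain ⟨w, hw⟩ := hdiv _ ((hmem z).2 hz)
    obtain ⟨c, o, hco⟩ := hgen w
    have h1 : z = c * x + o * (x + y) := by
      apply h.inj
      rw [hw, hco, map_add, map_mul, map_mul, hτ, hx, Algebra.smul_def]
      ring
    rw [h1]
    exact Ideal.add_mem _ (Ideal.mul_mem_left _ _ (Ideal.subset_span (by simp)))
      (Ideal.mul_mem_left _ _ (Ideal.add_mem _ (Ideal.subset_span (by simp))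
        (Ideal.subset_span (by simp))))
  -- the square of the maximal ideal
  have hsq : ∀ z ∈ maximalIdeal O ^ 2, ∃ w : A, algebraMap O A z = t ^ 2 * w := by
    intro z hz
    rw [pow_two] at hz
    refine Submodule.mul_induction_on hz ?_ ?_
    · intro a ha b hb
      obtain ⟨w1, hw1⟩ := hdiv _ ((hmem a).2 ha)
      obtain ⟨w2, hw2⟩ := hdiv _ ((hmem b).2 hb)
      exact ⟨w1 * w2, by rw [map_mul, hw1, hw2]; ring⟩
    · rintro a b ⟨w1, hw1⟩ ⟨w2, hw2⟩
      exact ⟨w1 + w2, by rw [map_add, hw1, hw2]; ring⟩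
  refine ⟨finrank_cotangentSpace_eq_two hxm hym hspan ?_, x, y, 0, 1, 0, hxm, hym, ?_, ?_, ?_⟩
  · intro α β hαβ
    obtain ⟨w, hw⟩ := hsq _ hαβ
    have h1 : algebraMap O A α * e + algebraMap O A β * (1 - e) = t * w := by
      rw [← sub_eq_zero]
      apply htreg
      rw [map_add, map_mul, map_mul, hx, hy] at hw
      linear_combination hw
    have hw1 : t * w ∈ P := P.mul_mem_right _ ht.1
    have hw2 : t * w ∈ Q := Q.mul_mem_right _ ht.2
    constructor
    · rw [← h.mem_iff hQ]
      have h2 : algebraMap O A α = t * w + (algebraMap O A α - algebraMap O A β) * (1 - e) := by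
        rw [← h1]; ring
      rw [h2]
      exact Q.add_mem hw2 (Q.mul_mem_left _ heQ)
    · rw [← h.mem_iff hP]
      have h2 : algebraMap O A β = t * w + (algebraMap O A β - algebraMap O A α) * e := by
        rw [← h1]; ring
      rw [h2]
      exact P.add_mem hw1 (P.mul_mem_left _ heP)
  · apply le_antisymm
    · rw [sup_le_iff, Ideal.span_le]
      refine ⟨?_, Ideal.pow_le_self (by norm_num)⟩
      rintro z (rfl | rfl)
      exacts [hxm, hym]
    · exact hspan.trans le_sup_left
  · simp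
  · have h1 : e * (1 - e) ∈ P ⊓ Q := ⟨P.mul_mem_right _ heP, Q.mul_mem_left _ heQ⟩
    obtain ⟨z, hz⟩ := hJ _ h1
    have hzm : z ∈ maximalIdeal O := (hmem z).1 (by rw [hz]; exact h1)
    have h2 : (0 : O) * x ^ 2 + 1 * x * y + 0 * y ^ 2 = (x + y) ^ 2 * z := by
      apply h.inj
      rw [map_mul, map_pow, hτ, hz]
      simp only [zero_mul, one_mul, zero_add, add_zero, map_mul, hx, hy]
      ring
    rw [h2]
    have h3 : (x + y) ^ 2 ∈ maximalIdeal O ^ 2 := Ideal.pow_mem_pow hτm 2
    have h4 := Ideal.mul_mem_mul h3 hzm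
    rwa [← pow_succ] at h4

end Groth.Agent.Models.H73.NodeLocal4
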