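import Groth.Agent.Models.H73.DisjCoh
import Groth.Agent.Etcore.CurveTop
import Groth.Agent.Etcore.CurveH1U
import Groth.Agent.CurvesA.MuConst
import Groth.Agent.CurvesA.ClosedPtSep
import Groth.Agent.CurvesA.DimOne
import Groth.Agent.Etrest.SHPoint
import Groth.Agent.VarietyA.SmoothReg
import Groth.Agent.Ega2.RegLow
import Groth.Agent.Sga5.CompDecomp
import Groth.Agent.Fdesc.StructMod
import Groth.Agent.S0002
import Groth.Agent.S0217

/-!
# `#H¹(X, ℤ/n) ≤ n^(2 h¹(X, O))` for `X` smooth and proper of dimension `≤ 1` (not necessarily connected)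
-/

set_option autoImplicit false
universe u

open CategoryTheory CategoryTheory.Limits AlgebraicGeometry Opposite TopologicalSpace

namespace Groth.Agent.Models.H73.SmoothCount

/-- A separated Noetherian scheme of dimension at most one is the union of two affine opens. -/
theorem exists_affine_cover (Z : Scheme.{u}) [IsNoetherian Z] [Z.IsSeparated]
    (hdim : topologicalKrullDim Z ≤ 1) :
    ∃ U V : Z.Opens, IsAffineOpen U ∧ IsAffineOpen V ∧ U ⊔ V = ⊤ := by
  obtain ⟨U, hU, -, hfin, -⟩ := Etcore.CurveTop.exists_affine_compl_finite Z hdim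
  obtain ⟨V, hV, hVs⟩ := Groth.Agent.S0217.result Z (fun U _ => by
      have : NoetherianSpace (U : Set Z) := NoetherianSpace.set _
      exact NoetherianSpace.finite_irreducibleComponents) hfin.toFinset
      (fun y _ => ⟨inferInstance, (CurvesA.DimOne.ringKrullDim_stalk_le Z y).trans hdim⟩)
  refine ⟨U, V, hU, hV, ?_⟩
  rw [eq_top_iff]
  intro x _
  by_cases hx : x ∈ U
  · exact Or.inl hx
  · exact Or.inr (hVs x (hfin.mem_toFinset.2 hx))

variable {k : Type u} [Field k] [IsAlgClosed k]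

theorem subsingleton_H_of_dim_lt_one {W : Scheme.{u}} [IsNoetherian W]
    (p : W ⟶ Spec (CommRingCat.of k)) [LocallyOfFiniteType p]
    (h : topologicalKrullDim W < ((1 : ℕ) : WithBot ℕ∞)) (F : EtCoh.Ab W) (q : ℕ) (hq : 0 < q) :
    Subsingleton (EtCoh.H W F q) := by
  have := Etcore.CurveTop.finite_of_dim_lt_one h
  let := Fintype.ofFinite W
  have hcl := Etcore.CurveTop.isClosed_singleton_of_dim_lt_one h
  exact CurvesA.Punctual.van_of_finite_supp Finset.univ (fun x _ => hcl x)
    (fun x _ => CurvesA.ClosedPtSep.isSepClosed_residueField p x (hcl x)) F (by simp) q hq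

theorem finite_H1_of_integral {W : Scheme.{u}} [IsIntegral W] (p : W ⟶ Spec (CommRingCat.of k))
    [IsProper p] [Smooth p] (hdim : topologicalKrullDim W ≤ 1) (n : ℕ) (hn : (n : k) ≠ 0) :
    Finite (EtCoh.H W (EtCoh.const W (ZMod n)) 1) := by
  have hn0 : 0 < n := Nat.pos_of_ne_zero (by rintro rfl; simp at hn)
  have : IsNoetherian W := CurvesA.ClosedPtSep.isNoetherian p
  by_cases h : topologicalKrullDim W < ((1 : ℕ) : WithBot ℕ∞)
  · have := subsingleton_H_of_dim_lt_one p h (EtCoh.const W (ZMod n)) 1 one_pos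
    infer_instance
  · have hd : topologicalKrullDim W = 1 := le_antisymm hdim (by simpa using h)
    obtain ⟨e⟩ := CurvesA.MuConst.nonempty_iso_const_mu_of_isSepClosed k n hn p
    let e1 : EtCoh.H W (EtCoh.const W (ZMod n)) 1 ≃+ EtCoh.H W (EtCoh.mu W n) 1 :=
      ((EtCoh.HF W 1).mapIso e).addCommGroupIsoToAddEquiv
    let _ : W.Over (Spec (CommRingCat.of k)) := ⟨p⟩
    have h1 := Etcore.CurveH1U.card_H1_mu W ⟨‹_›, ‹_›, ‹_›, hd⟩ n hn
    have : Finite (EtCoh.H W (EtCoh.mu W n) 1) := Nat.finite_of_card_ne_zero (by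
      rw [h1]
      exact (pow_pos hn0 _).ne')
    exact Finite.of_equiv _ e1.symm.toEquiv

/-- The integral case. -/
theorem card_H1_le_of_integral {W : Scheme.{u}} [IsIntegral W] (p : W ⟶ Spec (CommRingCat.of k))
    [IsProper p] [Smooth p] (hdim : topologicalKrullDim W ≤ 1) (n : ℕ) (hn : (n : k) ≠ 0) :
    Nat.card (EtCoh.H W (EtCoh.const W (ZMod n)) 1) ≤ n ^ (2 * Models.curveGenus k W p) := by
  have hn0 : 0 < n := Nat.pos_of_ne_zero (by rintro rfl; simp at hn)
  have : IsNoetherian W := CurvesA.ClosedPtSep.isNoetherian p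
  by_cases h : topologicalKrullDim W < ((1 : ℕ) : WithBot ℕ∞)
  · have := subsingleton_H_of_dim_lt_one p h (EtCoh.const W (ZMod n)) 1 one_pos
    rw [Nat.card_of_subsingleton (0 : EtCoh.H W (EtCoh.const W (ZMod n)) 1)]
    exact Nat.one_le_pow _ _ hn0
  · have hd : topologicalKrullDim W = 1 := le_antisymm hdim (by simpa using h)
    obtain ⟨e⟩ := CurvesA.MuConst.nonempty_iso_const_mu_of_isSepClosed k n hn p
    let e1 : EtCoh.H W (EtCoh.const W (ZMod n)) 1 ≃+ EtCoh.H W (EtCoh.mu W n) 1 :=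
      ((EtCoh.HF W 1).mapIso e).addCommGroupIsoToAddEquiv
    rw [Nat.card_congr e1.toEquiv]
    let _ : W.Over (Spec (CommRingCat.of k)) := ⟨p⟩
    exact (Etcore.CurveH1U.card_H1_mu W ⟨‹_›, ‹_›, ‹_›, hd⟩ n hn).le

theorem isDomain_stalk {X : Scheme.{u}} (p : X ⟶ Spec (CommRingCat.of k)) [Smooth p]
    (hdim : topologicalKrullDim X ≤ 1) (x : X) : IsDomain (X.presheaf.stalk x) := by
  have h1 : x ∈ p.smoothLocus := by
    rw [Scheme.Hom.smoothLocus_eq_top]
    trivial
  have := (VarietyA.SmoothReg.mem_smoothLocus_iff_of_perfectField p x).1 h1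
  exact Ega2.RegLow.isDomain _ ((CurvesA.DimOne.ringKrullDim_stalk_le X x).trans hdim)

theorem finite_components (X : Scheme.{u}) [IsNoetherian X] : Finite (ConnectedComponents X) := by
  have := Sga3C.LocConn.locallyConnectedSpace_of_isLocallyNoetherian X
  exact finite_of_compact_of_discrete

section Components

open Groth.Agent.Sga5.CompDecomp

variable {X : Scheme.{u}} [IsNoetherian X]

/-- `#H⁰(X, M) = (#M)^c`. -/
theorem card_H0 (M : Type) [AddCommGroup M] :
    Nat.card (EtCoh.H X (EtCoh.const X M) 0) = Nat.card M ^ Nat.card (ConnectedComponents X) := by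
  have := finite_components X
  obtain ⟨m, ⟨e'⟩⟩ := Finite.exists_equiv_fin (ConnectedComponents X)
  let e := e'.symm
  obtain ⟨a⟩ := Disj.nonempty_equiv_of_cover (fun i => comp X (e i))
    (fun i j hij => disjoint_comp _ _ fun h => hij (e.injective h))
    (fun x => ⟨e' (ConnectedComponents.mk x), by
      rw [mem_comp]
      exact (e'.symm_apply_apply _).symm⟩) M 0
  rw [Nat.card_congr a.toEquiv, Nat.card_pi, Nat.card_congr e', Nat.card_fin]
  have h1 : ∀ i, Nat.card (EtCoh.H (comp X (e i)) (EtCoh.const (comp X (e i) : Scheme.{u}) M) 0) =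
      Nat.card M := by
    intro i
    have hc : ConnectedSpace (comp X (e i) : Scheme.{u}) := by
      obtain ⟨x, hx⟩ := ConnectedComponents.surjective_coe (e i)
      have h2 : (comp X (e i) : Set X) = connectedComponent x := by
        rw [← hx]
        exact connectedComponents_preimage_singleton
      have h1 : _root_.IsConnected (comp X (e i) : Set X) := by
        rw [h2]
        exact isConnected_connectedComponent
      exact isConnected_iff_connectedSpace.1 h1
    obtain ⟨b⟩ := Etrest.SHPoint.nonempty_H0_const (comp X (e i) : Scheme.{u}) M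
    exact Nat.card_congr b.toEquiv
  rw [Finset.prod_congr rfl (fun i _ => h1 i), Finset.prod_const, Finset.card_univ, Fintype.card_fin]

end Components

section Main

open Groth.Agent.Sga5.CompDecomp

theorem exists_pieces {X : Scheme.{u}} (p : X ⟶ Spec (CommRingCat.of k)) [IsProper p] [Smooth p]
    (hdim : topologicalKrullDim X ≤ 1) :
    ∃ (m : ℕ) (W : Fin m → X.Opens), (∀ i j, i ≠ j → Disjoint (W i : Set X) (W j)) ∧
      (∀ x : X, ∃ i, x ∈ W i) ∧ (∀ i, IsIntegral (W i : Scheme.{u})) ∧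
      (∀ i, IsProper ((W i).ι ≫ p)) ∧ (∀ i, Smooth ((W i).ι ≫ p)) ∧
      (∀ i, topologicalKrullDim (W i : Scheme.{u}) ≤ 1) := by
  have : IsNoetherian X := CurvesA.ClosedPtSep.isNoetherian p
  have := finite_components X
  obtain ⟨m, ⟨e'⟩⟩ := Finite.exists_equiv_fin (ConnectedComponents X)
  let e := e'.symm
  let W : Fin m → X.Opens := fun i => comp X (e i)
  have hd : ∀ i j, i ≠ j → Disjoint (W i : Set X) (W j) :=
    fun i j hij => disjoint_comp _ _ fun h => hij (e.injective h)
  have hc : ∀ x : X, ∃ i, x ∈ W i := fun x => ⟨e' (ConnectedComponents.mk x), by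
      rw [mem_comp]
      exact (e'.symm_apply_apply _).symm⟩
  have hci := Disj.isClosedImmersion_ι W hd hc
  exact ⟨m, W, hd, hc, fun i => isIntegral_comp (isDomain_stalk p hdim) _,
    fun i => inferInstance, fun i => inferInstance,
    fun i => (topologicalKrullDim_subspace_le X (W i : Set X)).trans hdim⟩

theorem finite_H1 {X : Scheme.{u}} (p : X ⟶ Spec (CommRingCat.of k)) [IsProper p] [Smooth p]
    (hdim : topologicalKrullDim X ≤ 1) (n : ℕ) (hn : (n : k) ≠ 0) :
    Finite (EtCoh.H X (EtCoh.const X (ZMod n)) 1) := by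
  obtain ⟨m, W, hd, hc, h1, h2, h3, h4⟩ := exists_pieces p hdim
  obtain ⟨a⟩ := Disj.nonempty_equiv_of_cover W hd hc (ZMod n) 1
  have h5 : ∀ i, Finite (EtCoh.H (W i) (EtCoh.const (W i : Scheme.{u}) (ZMod n)) 1) := fun i =>
    finite_H1_of_integral ((W i).ι ≫ p) (h4 i) n hn
  exact Finite.of_equiv _ a.symm.toEquiv

/-- `#H¹(X, ℤ/n) ≤ n^(2 h¹(X, O))`. -/
theorem card_H1_le {X : Scheme.{u}} (p : X ⟶ Spec (CommRingCat.of k)) [IsProper p] [Smooth p]
    (hdim : topologicalKrullDim X ≤ 1) (n : ℕ) (hn : (n : k) ≠ 0) :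
    Nat.card (EtCoh.H X (EtCoh.const X (ZMod n)) 1) ≤ n ^ (2 * Models.curveGenus k X p) := by
  have hn0 : 0 < n := Nat.pos_of_ne_zero (by rintro rfl; simp at hn)
  have : IsNoetherian X := CurvesA.ClosedPtSep.isNoetherian p
  have hsep : X.IsSeparated := by
    constructor
    rw [← terminal.comp_from p]
    infer_instance
  obtain ⟨m, W, hd, hc, g1, g2, g3, g4⟩ := exists_pieces p hdim
  obtain ⟨a⟩ := Disj.nonempty_equiv_of_cover W hd hc (ZMod n) 1
  have h1 : ∀ i, Nat.card (EtCoh.H (W i) (EtCoh.const (W i : Scheme.{u}) (ZMod n)) 1) ≤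
      n ^ (2 * Models.curveGenus k (W i) ((W i).ι ≫ p)) := fun i =>
    card_H1_le_of_integral ((W i).ι ≫ p) (g4 i) n hn
  obtain ⟨U, V, hU, hV, hcov⟩ := exists_affine_cover X hdim
  have h2 := DisjCoh.sum_genus_le W hd hc p hU hV hcov (by
    let _ : X.Over (Spec (CommRingCat.of k)) := ⟨p⟩
    have : IsProper (X ↘ Spec (CommRingCat.of k)) := ‹IsProper p›
    exact S0002.result k X (Coh.structureModule X) (Fdesc.StructMod.isCoh_structureModule X) 1)
  rw [Nat.card_congr a.toEquiv, Nat.card_pi]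
  refine (Finset.prod_le_prod' fun i _ => h1 i).trans ?_
  rw [Finset.prod_pow_eq_pow_sum, ← Finset.mul_sum]
  exact Nat.pow_le_pow_right hn0 (Nat.mul_le_mul_left 2 h2)

end Main

end Groth.Agent.Models.H73.SmoothCount
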