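import Groth.Agent.Models.H73.CurveCount
import Groth.Agent.Models.H73.SmoothCount
import Groth.Agent.Desc.DimMap
import Groth.Agent.CurvesA.H1GmPicSurj
import Groth.Agent.Etcore.KumCount921

/-!
# The `n`-torsion of the Picard group of a reduced curve

`card_pic_tors_mul_le`: `#Pic(Z)[n] · n^(c + s) ≤ n^(1 + b + 2a)` for `Z` proper connected over an algebraically closed
field, `ν : Z' ⟶ Z` finite surjective with `Z'` smooth, isomorphic outside `s` points with `b` points above them, `c` the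
number of components of `Z'` and `a = h¹(Z', O)`.
-/

set_option autoImplicit false
universe u

open CategoryTheory CategoryTheory.Limits CategoryTheory.Abelian AlgebraicGeometry Opposite

namespace Groth.Agent.Models.H73.PicCount

open Groth.Agent.Sga4B.ConstLC Groth.Agent.Etcore.CompSES Groth.Agent.Etcore.CompH
open Groth.Agent.Models.H73.StalkCount Groth.Agent.Models.H73.CurveCount

/-- A finite morphism does not increase the dimension. -/
theorem topologicalKrullDim_le {Z Z' : Scheme.{u}} (ν : Z' ⟶ Z) [IsFinite ν] :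
    topologicalKrullDim Z' ≤ topologicalKrullDim Z := by
  refine Desc.DimMap.topologicalKrullDim_le_of_fibres ν ν.continuous fun x y hxy h => ?_
  have h1 := ν.isDiscrete_preimage_singleton (ν x)
  have := h1.to_subtype
  have h2 : (⟨x, rfl⟩ : (ν ⁻¹' {ν x} : Set Z')) ⤳ ⟨y, h.symm⟩ :=
    Topology.IsInducing.subtypeVal.specializes_iff.1 hxy
  exact congrArg Subtype.val (specializes_iff_eq.1 h2)

/-- `#Pic(X)[n] ≤ #H¹(X, ℤ/n)`. -/
theorem card_pic_tors_le {k : Type u} [Field k] [IsAlgClosed k] {X : Scheme.{u}}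
    (f : X ⟶ Spec (CommRingCat.of k)) (n : ℕ) (hn : (n : k) ≠ 0)
    (hfin : Finite (EtCoh.H X (EtCoh.const X (ZMod n)) 1)) :
    Nat.card {x : Grpsch.PicGrp.Pic X // x ^ n = 1} ≤
      Nat.card (EtCoh.H X (EtCoh.const X (ZMod n)) 1) := by
  obtain ⟨e⟩ := CurvesA.MuConst.nonempty_iso_const_mu_of_isSepClosed k n hn f
  let e1 : EtCoh.H X (EtCoh.const X (ZMod n)) 1 ≃+ EtCoh.H X (EtCoh.mu X n) 1 :=
    ((EtCoh.HF X 1).mapIso e).addCommGroupIsoToAddEquiv
  have hfin' : Finite (EtCoh.H X (EtCoh.mu X n) 1) := Finite.of_equiv _ e1.toEquiv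
  rw [Nat.card_congr e1.toEquiv]
  let p := CurvesA.H1GmPic.picEquiv X
  have h1 : ∀ x : Grpsch.PicGrp.Pic X, x ^ n = 1 ↔ n • p (Additive.ofMul x) = 0 := by
    intro x
    rw [← map_nsmul, ← ofMul_pow, EmbeddingLike.map_eq_zero_iff]
    exact (Additive.ofMul.injective.eq_iff' rfl).symm
  have hs : ∀ x : {x : Grpsch.PicGrp.Pic X // x ^ n = 1}, ∃ y : EtCoh.H X (EtCoh.mu X n) 1,
      Sheaf.H.map (EtCoh.muι X n) 1 y = p (Additive.ofMul x.1) := fun x =>
    Dix.KummerLES.exists_mu_of_nsmul_eq_zero (Etcore.MuCard.invertible X f n hn) 1 _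
      ((h1 x.1).1 x.2)
  choose y hy using hs
  refine Nat.card_le_card_of_injective y fun a b hab => ?_
  have h2 : p (Additive.ofMul a.1) = p (Additive.ofMul b.1) := by
    rw [← hy a, ← hy b, hab]
  exact Subtype.ext (Additive.ofMul.injective (p.injective h2))

variable {k : Type u} [Field k] [IsAlgClosed k] {Z Z' : Scheme.{u}}
    (f : Z ⟶ Spec (CommRingCat.of k)) [IsProper f] (ν : Z' ⟶ Z) [IsFinite ν]

/-- The points above the exceptional set. -/
theorem sum_ncard (T : Finset Z) : ∑ x ∈ T, (ν ⁻¹' {x}).ncard = (ν ⁻¹' (T : Set Z)).ncard := by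
  classical
  have hf : ∀ x, (ν ⁻¹' {x}).Finite := fun x => ν.finite_preimage_singleton x
  induction T using Finset.induction_on with
  | empty => simp
  | insert x T hx ih =>
    rw [Finset.sum_insert hx, ih, Finset.coe_insert, Set.insert_eq, Set.preimage_union,
      Set.ncard_union_eq _ (hf x) (ν.finite_preimage T.finite_toSet)]
    rw [Set.disjoint_left]
    rintro a (rfl : ν a = x) (h : ν a ∈ (T : Set Z))
    exact hx h

include f in
/-- `H¹(Z, M)` is finite if `H¹(Z', M)` is. -/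
theorem finite_H1 (M : Type) [AddCommGroup M] [Finite M] (D : Data (fam ν))
    (h : Finite (EtCoh.H Z' (EtCoh.const Z' M) 1)) : Finite (EtCoh.H Z (EtCoh.const Z M) 1) := by
  have : IsNoetherian Z := CurvesA.ClosedPtSep.isNoetherian f
  have : LocallyOfFinitePresentation ν :=
    LocallyOfFinitePresentation.iff_locallyOfFiniteType.2 inferInstance
  have h3 : Finite (Ext (EtCoh.const Z ℤ) (ses (fam ν) M).X₃ 0) := finite_coker (fam ν) M D 0
  have e : G (fam ν) (ULift.{u + 1} M) ≅ (EtCoh.push ν).obj (LC Z' (ULift.{u + 1} M)) :=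
    biproductUniqueIso (S (fam ν) (ULift.{u + 1} M))
  have h2 : Finite (Ext (EtCoh.const Z ℤ) (ses (fam ν) M).X₂ 1) :=
    Finite.of_equiv _ ((Sga4B.HTools.HCongr e 1).trans (HS (fam ν) M 0 1)).symm.toEquiv
  have h1 : Finite (EtCoh.H Z (LC Z (ULift.{u + 1} M)) 1) :=
    Sga4B.CurveCard.finite_ext (ses_shortExact (fam ν) M D) (EtCoh.const Z ℤ)
  exact @Finite.of_equiv _ _ h1 (Sga4B.HTools.HCongr (constIso Z M) 1).symm.toEquiv

/-- `#Pic(Z)[n] · n^(c + s) ≤ n^(1 + b + 2a)`. -/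
theorem card_pic_tors_mul_le [ConnectedSpace Z] [Surjective ν] [Smooth (ν ≫ f)] (U : Z.Opens)
    [IsIso (ν ∣_ U)] (hfin : ((U : Set Z)ᶜ).Finite) (hcl : ∀ x ∉ U, IsClosed ({x} : Set Z))
    (hdim : topologicalKrullDim Z ≤ 1) (n : ℕ) (hn : (n : k) ≠ 0) :
    Nat.card {x : Grpsch.PicGrp.Pic Z // x ^ n = 1} *
      n ^ (Nat.card (ConnectedComponents Z') + ((U : Set Z)ᶜ).ncard) ≤
    n ^ (1 + (ν ⁻¹' (U : Set Z)ᶜ).ncard + 2 * Models.curveGenus k Z' (ν ≫ f)) := by
  have hn0 : 0 < n := Nat.pos_of_ne_zero (by rintro rfl; simp at hn)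
  have : NeZero n := ⟨hn0.ne'⟩
  have hpr : IsProper (ν ≫ f) := inferInstance
  have : IsNoetherian Z' := CurvesA.ClosedPtSep.isNoetherian (ν ≫ f)
  have hdim' := (topologicalKrullDim_le ν).trans hdim
  obtain ⟨D, hD⟩ := exists_data f ν U hfin hcl
  have h1 := card_H1_mul_le f ν (ZMod n) D (fun x _ => ν.finite_preimage_singleton x)
  rw [Nat.card_zmod, SmoothCount.card_H0, Nat.card_zmod, sum_ncard, hD] at h1
  have h2 : Nat.card (EtCoh.H Z (EtCoh.const Z (ZMod n)) 0) = n := by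
    obtain ⟨e⟩ := Etrest.SHPoint.nonempty_H0_const Z (ZMod n)
    rw [Nat.card_congr e.toEquiv, Nat.card_zmod]
  have h3 := SmoothCount.card_H1_le (ν ≫ f) hdim' n hn
  have h4 := card_pic_tors_le f n hn (finite_H1 f ν (ZMod n) D (SmoothCount.finite_H1 (ν ≫ f) hdim' n hn))
  have h5 : D.T.card = ((U : Set Z)ᶜ).ncard := by
    rw [← hD, Set.ncard_coe_finset]
  rw [h2, h5] at h1
  calc _ ≤ Nat.card (EtCoh.H Z (EtCoh.const Z (ZMod n)) 1) *
        n ^ (Nat.card (ConnectedComponents Z') + ((U : Set Z)ᶜ).ncard) :=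
        Nat.mul_le_mul_right _ h4
    _ = n ^ Nat.card (ConnectedComponents Z') * n ^ ((U : Set Z)ᶜ).ncard *
        Nat.card (EtCoh.H Z (EtCoh.const Z (ZMod n)) 1) := by rw [pow_add]; ring
    _ ≤ n * n ^ (ν ⁻¹' (U : Set Z)ᶜ).ncard * Nat.card (EtCoh.H Z' (EtCoh.const Z' (ZMod n)) 1) := h1
    _ ≤ n * n ^ (ν ⁻¹' (U : Set Z)ᶜ).ncard * n ^ (2 * Models.curveGenus k Z' (ν ≫ f)) :=
        Nat.mul_le_mul_left _ h3
    _ = _ := by rw [pow_add, pow_add, pow_one]

end Groth.Agent.Models.H73.PicCount
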