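import Groth.Agent.Etcore.CompH
import Groth.Agent.Sga4h.EulerPoint
import Groth.Agent.Etbase.StalkPush
import Groth.Agent.EtpbcA.GeomSplit

/-!
# Counting the stalks of `ν_* M` and of `coker (M ⟶ ν_* M)` for `ν` finite
-/

set_option autoImplicit false
universe u

open CategoryTheory CategoryTheory.Limits CategoryTheory.Abelian AlgebraicGeometry Opposite

namespace Groth.Agent.Models.H73.StalkCount

open Groth.Agent.Sga4B.ConstLC Groth.Agent.Etcore.CompSES Groth.Agent.Etcore.CompH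

theorem card_stalk_LC {X : Scheme.{u}} (M : Type) [AddCommGroup M] {Ω : Type u} [Field Ω]
    [IsSepClosed Ω] (ξ : Spec (CommRingCat.of Ω) ⟶ X) :
    Nat.card ((EtCoh.stalk ξ).obj (LC X (ULift.{u + 1} M)) : AddCommGrpCat.{u + 1}) = Nat.card M := by
  have e1 : ((EtCoh.stalk ξ).obj (EtCoh.const X M) : AddCommGrpCat.{u + 1}) ≃+
      ((EtCoh.stalk ξ).obj (LC X (ULift.{u + 1} M)) : AddCommGrpCat.{u + 1}) :=
    ((EtCoh.stalk ξ).mapIso (constIso X M)).addCommGroupIsoToAddEquiv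
  rw [← Nat.card_congr e1.toEquiv]
  exact Nat.card_congr ((Groth.Agent.Etbase.OverStalk.sheafFiberConstantSheafIso
    (Scheme.pointSmallEtale ξ) (AddCommGrpCat.of (ULift.{u + 1} M))).addCommGroupIsoToAddEquiv.trans
      AddEquiv.ulift).toEquiv

theorem card_stalk_push {Z Z' : Scheme.{u}} (ν : Z' ⟶ Z) [IsFinite ν] (M : Type) [AddCommGroup M]
    {k : Type u} [Field k] [IsAlgClosed k] (ξ : Spec (CommRingCat.of k) ⟶ Z) :
    Nat.card ((EtCoh.stalk ξ).obj ((EtCoh.push ν).obj (LC Z' (ULift.{u + 1} M))) :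
      AddCommGrpCat.{u + 1}) =
      Nat.card M ^ Nat.card {ζ : Spec (CommRingCat.of k) ⟶ Z' // ζ ≫ ν = ξ} := by
  have hfin : Finite {ζ : Spec (CommRingCat.of k) ⟶ Z' // ζ ≫ ν = ξ} :=
    Groth.Agent.Etbase.FinLiftSch.finite_points ν ξ
  let := Fintype.ofFinite {ζ : Spec (CommRingCat.of k) ⟶ Z' // ζ ≫ ν = ξ}
  rw [Nat.card_congr (Equiv.ofBijective _
    (Groth.Agent.Etbase.StalkPush.bijective_cmp (η := ξ) ν (LC Z' (ULift.{u + 1} M)))), Nat.card_pi]
  rw [Finset.prod_congr rfl (fun ζ _ => card_stalk_LC M ζ.1), Finset.prod_const, Finset.card_univ,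
    Nat.card_eq_fintype_card (α := {ζ : Spec (CommRingCat.of k) ⟶ Z' // ζ ≫ ν = ξ})]

variable {Z Z' : Scheme.{u}} (ν : Z' ⟶ Z)

/-- The number of lifts of a rational point is at most the number of points of the fibre. -/
theorem card_lifts_le {k : Type u} [Field k] (f : Z ⟶ Spec (CommRingCat.of k))
    (ξ : Spec (CommRingCat.of k) ⟶ Z) (hξ : ξ ≫ f = 𝟙 _)
    (hfin : (ν ⁻¹' {ξ default}).Finite) :
    Nat.card {ζ : Spec (CommRingCat.of k) ⟶ Z' // ζ ≫ ν = ξ} ≤ (ν ⁻¹' {ξ default}).ncard := by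
  have : Finite (ν ⁻¹' {ξ default} : Set Z') := hfin
  rw [← Nat.card_coe_set_eq]
  refine Nat.card_le_card_of_injective (fun ζ => ⟨ζ.1 default, ?_⟩) ?_
  · exact (Scheme.Hom.comp_apply _ _ _).symm.trans
      (congrArg (fun g : Spec (CommRingCat.of k) ⟶ Z => g default) ζ.2)
  · rintro ⟨ζ, hζ⟩ ⟨ζ', hζ'⟩ h
    apply Subtype.ext
    refine Groth.Agent.EtpbcA.GeomSplit.section_ext (ν ≫ f) ζ ζ' ?_ ?_ (congrArg Subtype.val h)
    · rw [← Category.assoc, hζ, hξ]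
    · rw [← Category.assoc, hζ', hξ]

variable [IsFinite ν] (M : Type) [AddCommGroup M]

/-- The family consisting of `ν` only. -/
abbrev fam : ∀ _ : Fin 1, Z' ⟶ Z := fun _ => ν

theorem card_stalk_coker_mul {k : Type u} [Field k] [IsAlgClosed k] (ξ : Spec (CommRingCat.of k) ⟶ Z)
    (hse : (ses (fam ν) M).ShortExact) :
    Nat.card ((EtCoh.stalk ξ).obj (cokernel (φ (fam ν) (ULift.{u + 1} M))) : AddCommGrpCat.{u + 1}) *
      Nat.card M = Nat.card M ^ Nat.card {ζ : Spec (CommRingCat.of k) ⟶ Z' // ζ ≫ ν = ξ} := by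
  rw [← card_stalk_push ν M ξ, ← card_stalk_LC M ξ, mul_comm]
  have h1 := Groth.Agent.Sga4h.EulerPoint.card_stalk ξ hse
  have e : G (fam ν) (ULift.{u + 1} M) ≅ (EtCoh.push ν).obj (LC Z' (ULift.{u + 1} M)) :=
    biproductUniqueIso (S (fam ν) (ULift.{u + 1} M))
  rw [← Nat.card_congr ((EtCoh.stalk ξ).mapIso e).addCommGroupIsoToAddEquiv.toEquiv]
  exact h1.symm

/-- The cokernel has at most `l^(b-1)` elements in its stalk at a rational point with `b` points above. -/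
theorem card_stalk_coker_mul_le [Finite M] {k : Type u} [Field k] [IsAlgClosed k]
    (f : Z ⟶ Spec (CommRingCat.of k)) (ξ : Spec (CommRingCat.of k) ⟶ Z) (hξ : ξ ≫ f = 𝟙 _)
    (hfin : (ν ⁻¹' {ξ default}).Finite) (hse : (ses (fam ν) M).ShortExact) :
    Nat.card ((EtCoh.stalk ξ).obj (cokernel (φ (fam ν) (ULift.{u + 1} M))) : AddCommGrpCat.{u + 1}) *
      Nat.card M ≤ Nat.card M ^ (ν ⁻¹' {ξ default}).ncard := by
  rw [card_stalk_coker_mul ν M ξ hse]
  exact Nat.pow_le_pow_right Nat.card_pos (card_lifts_le ν f ξ hξ hfin)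

theorem finite_stalk_coker [Finite M] {k : Type u} [Field k] [IsAlgClosed k]
    (ξ : Spec (CommRingCat.of k) ⟶ Z) (hse : (ses (fam ν) M).ShortExact) :
    Finite ((EtCoh.stalk ξ).obj (cokernel (φ (fam ν) (ULift.{u + 1} M))) : AddCommGrpCat.{u + 1}) := by
  have h := card_stalk_coker_mul ν M ξ hse
  apply Nat.finite_of_card_ne_zero
  intro h0
  rw [h0, zero_mul] at h
  exact (pow_pos (Nat.card_pos (α := M)) _).ne h

open Groth.Agent.Etcore.StalkSec Groth.Agent.CurvesA.Punctual Groth.Agent.EtpbcA.Artin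

/-- Global sections of a sheaf with finite support are bounded by the stalks. -/
theorem card_H0_le (T : Finset Z) (F : EtCoh.Ab Z) (hF : EtPBC.supp F ⊆ T) {Ω : Type u} [Field Ω]
    [IsSepClosed Ω] (ξ : T → (Spec (CommRingCat.of Ω) ⟶ Z)) (hξ : ∀ x : T, ξ x default = x.1)
    (hfin : ∀ x : T, Finite ((EtCoh.stalk (ξ x)).obj F : AddCommGrpCat.{u + 1})) :
    Nat.card (EtCoh.H Z F 0) ≤
      ∏ x : T, Nat.card ((EtCoh.stalk (ξ x)).obj F : AddCommGrpCat.{u + 1}) := by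
  rw [Nat.card_congr (Sheaf.H.equiv₀ F (EtCore.topIsTerminal Z)).toEquiv]
  have hpt : ∀ x : T, ∃ t : (Scheme.pointSmallEtale (ξ x)).fiber.obj (EtCoh.top Z),
      pt (ξ x) t = x.1 :=
    fun x => exists_pt (ξ x) (U := EtCoh.top Z) x.1 (hξ x).symm
  choose t ht using hpt
  have hinj : Function.Injective (fun (s : EtCoh.sect F (EtCoh.top Z)) (x : T) =>
    (germ (ξ x) F (EtCoh.top Z) (t x) s : ((EtCoh.stalk (ξ x)).obj F : AddCommGrpCat.{u + 1}))) := by
    intro a b hab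
    refine Etbase.EtSite.sect_ext F (EtCoh.top Z) a b fun x => ?_
    by_cases hx : (x : Z) ∈ T
    · have h1 := congrFun hab ⟨x, hx⟩
      obtain ⟨V, f, y, hy, h2⟩ := (germ_eq_iff (ξ ⟨x, hx⟩) F (EtCoh.top Z) (t ⟨x, hx⟩) a b).1 h1
      refine ⟨V, f, pt (ξ ⟨x, hx⟩) y, ?_, h2⟩
      have h3 := (pt_map (ξ ⟨x, hx⟩) f y).symm
      rw [hy] at h3
      exact h3.trans (ht ⟨x, hx⟩)
    · have h1 := (not_mem_supp_iff F (x : Z)).1 (fun h => hx (hF h))
      obtain ⟨V, g, ⟨w, hw⟩, h2⟩ := h1 (EtCoh.top Z) (a - b) x rfl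
      rw [map_sub, sub_eq_zero] at h2
      exact ⟨V, g, w, hw, h2⟩
  have h1 := Nat.card_le_card_of_injective _ hinj
  rw [Nat.card_pi] at h1
  exact h1

end Groth.Agent.Models.H73.StalkCount
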